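import Cfsg.Agent.GHC.NG
import Cfsg.Agent.Solv.ClassSize

/-! The configuration of `M₂₃` lifted from `X` to `G`. -/

set_option autoImplicit false

namespace Cfsg.Lib.GHC

open Subgroup Cfsg.Lib.Trans Cfsg.Lib.Gold
open scoped commutatorElement

variable {G X : Type*} [Group G] [Group X] [Finite G] {t : G} {π : C1 t →* X}

theorem St.pf_isConj (h : St t π) {a b : G} (ha : a ∈ C1 t) (hb : b ∈ C1 t) (a2 : a * a = 1)
    (b2 : b * b = 1) (e : IsConj (pf π a) (pf π b)) : ∃ c ∈ C1 t, c * a * c⁻¹ = b := by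
  rw [pf_eq ha, pf_eq hb] at e
  obtain ⟨c, hc⟩ := isConj_iff.1 (h.isConj (a := 1) (b := 1) (Subtype.ext (by simpa [sq] using a2))
    (Subtype.ext (by simpa [sq] using b2)) e)
  exact ⟨c, c.2, congrArg Subtype.val hc⟩

theorem St.exists_ms (h : St t π) {A : Subgroup X} (hm : MX A (tb π)) :
    ∃ S B : Subgroup G, MS t S B := by
  have : Fact (Nat.Prime 2) := ⟨Nat.prime_two⟩
  have := h.finite
  have := hm.nrm
  obtain ⟨c, c2, c4⟩ := hm.four
  obtain ⟨P, hP⟩ := (show IsPGroup 2 (zpowers c) from fun y => ⟨3, by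
    obtain ⟨_, n, rfl⟩ := y
    refine Subtype.ext ?_
    change (c ^ n) ^ 2 ^ 3 = 1
    rw [← zpow_natCast, ← zpow_mul, mul_comm, zpow_mul, zpow_natCast,
      show 2 ^ 3 = 4 + 4 by norm_num, pow_add, hm.sq _ c4, one_zpow]⟩).exists_le_sylow
  have hA : A ≤ P := IsPGroup.le_sylow_of_normal
    (fun e => ⟨1, Subtype.ext (by simpa [sq] using hm.sq e e.2)⟩) P
  have cP : Nat.card (P : Subgroup X) = 128 := by
    rw [P.card_eq_multiplicity, hm.cardX, show 2688 = 2 ^ 7 * 21 by norm_num,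
      Nat.factorization_mul (by norm_num) (by norm_num), Nat.Prime.factorization_pow Nat.prime_two,
      Finsupp.add_apply, Finsupp.single_eq_same,
      Nat.factorization_eq_zero_of_not_dvd (by norm_num)]
    norm_num
  obtain ⟨S, tS, l, hS⟩ := h.exists_lf_syl P (hA hm.mem)
  have l' := l.ov hA
  have mo : ∀ {a : G}, a ∈ ov π S A ↔ a ∈ S ∧ pf π a ∈ A := mem_ov l.le
  generalize ov π S A = B at l' mo
  have BS : B ≤ S := fun a ha => (mo.1 ha).1
  have tB : t ∈ B := mo.2 ⟨tS, pf_t (π := π) ▸ hm.mem⟩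
  have B2 : ∀ a ∈ B, a * a = 1 := fun x hx => h.linj l' (mul_mem hx hx) (one_mem _) (by
    rw [pf_mul (l'.le hx) (l'.le hx), hm.sq _ (l'.into x hx), pf_one])
  have cA : ∀ n ∈ C1 t, ∀ a ∈ B, pf π (n * a * n⁻¹) ∈ A := fun n hn a ha => by
    rw [pf_conj hn (l'.le ha)]; exact this.conj_mem _ (l'.into a ha) _
  have no : ∀ w ∈ S, w ∉ B → pf π w ∉ A := fun w hw h1 e => h1 (mo.2 ⟨hw, e⟩)
  have n1 : ∀ a ∈ S, a ≠ 1 → pf π a ≠ 1 := fun a ha h1 e =>
    h1 (h.linj l ha (one_mem _) (e.trans pf_one.symm))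
  have nt : ∀ a ∈ S, a ≠ t → pf π a ≠ tb π := fun a ha h1 e =>
    h1 (h.linj l ha tS (e.trans pf_t.symm))
  refine ⟨S, B, h.ord, hS, BS, tB, B2, (h.lcard l').trans hm.card, (h.lcard l).trans cP, ?_,
    fun n hn e => ?_, fun e n hn => ?_, fun w hw h1 h2 => ?_, fun w hw w' hw' h1 h2 h3 h4 => ?_,
    ?_, fun a ha b hb a1 a2 b1 b2 => ?_, ?_, fun x hx hc => ?_⟩
  · exact Dvd.dvd.trans (by rw [hm.cardX]; norm_num) (card_dvd_of_surjective π h.surj)
  · exact eq_of_le_of_card_ge (cj_le_iff.2 fun a ha => mo.2 ⟨cj_le_iff.1 e a ha, cA n hn a ha⟩)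
      (card_cj n B).ge
  · have e1 : π.ker = ⊥ := by
      rw [centralizerPPrimeCore, Subgroup.map_eq_bot_iff, ker_subtype] at e
      exact eq_bot_iff.2 ((Solv.le_pPrimeCore inferInstance h.odd.coprime_two_right).trans e)
    refine mem_normalizer_of_cj_le (cj_le_iff.2 fun a ha => ?_)
    obtain ⟨b, hb, e2⟩ := l'.onto _ (cA n hn a ha)
    have h1 := mul_mem (mul_mem hn (l'.le ha)) (inv_mem hn)
    rw [pf_eq (l'.le hb), pf_eq h1] at e2
    have : b = n * a * n⁻¹ := congrArg Subtype.val ((MonoidHom.ker_eq_bot_iff π).1 e1 e2)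
    exact this ▸ hb
  · have wC := l.le hw
    refine le_trans (Nat.card_le_card_of_injective (β := (C1 (pf π w) ⊓ A : Subgroup X))
      (fun y => ⟨pf π y, mem_centralizer_singleton_iff.2 (by
        rw [← pf_mul (l'.le y.2.2) wC, mem_centralizer_singleton_iff.1 y.2.1,
          pf_mul wC (l'.le y.2.2)]), l'.into _ y.2.2⟩)
      fun x y e => Subtype.ext (h.linj l' x.2.2 y.2.2 (congrArg Subtype.val e)))
      (hm.free _ (no w hw h1) (by rw [← pf_mul wC wC]; exact l'.into _ h2))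
  · obtain ⟨c, -, e⟩ := h.pf_isConj (l.le hw) (l.le hw') h3 h4 (hm.out _ _ (no w hw h1)
      (no w' hw' h2) (by rw [← pf_mul (l.le hw) (l.le hw), h3, pf_one])
      (by rw [← pf_mul (l.le hw') (l.le hw'), h4, pf_one]))
    exact isConj_iff.2 ⟨c, e⟩
  · obtain ⟨w, h1, h2⟩ := hm.ex
    obtain ⟨g, -, hg⟩ := (isSylowIn_top P).exists_cj_le (Q := zpowers w) (fun y => ⟨1, by
      obtain ⟨_, n, rfl⟩ := y
      refine Subtype.ext ?_
      change (w ^ n) ^ 2 ^ 1 = 1
      rw [← zpow_natCast, ← zpow_mul, mul_comm, zpow_mul, zpow_natCast, pow_one, sq, h2,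
        one_zpow]⟩) le_top
    obtain ⟨s, hs, e⟩ := l.onto _ (cj_le_iff.1 hg w (mem_zpowers w))
    refine ⟨s, hs, fun h3 => h1 ?_, h.linj l (mul_mem hs hs) (one_mem _) ?_⟩
    · have := hm.nrm.conj_mem _ (e ▸ l'.into s h3) g⁻¹
      simpa [mul_assoc] using this
    · rw [pf_mul (l.le hs) (l.le hs), e, conj_mul, h2, pf_one]; simp
  · exact h.pf_isConj (l'.le ha) (l'.le hb) (B2 a ha) (B2 b hb) (hm.inn _ (l'.into a ha) _
      (l'.into b hb) (n1 a (BS ha) a1) (nt a (BS ha) a2) (n1 b (BS hb) b1) (nt b (BS hb) b2))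
  · obtain ⟨s, hs, rfl⟩ := l.onto c (hP (mem_zpowers c))
    exact ⟨s, hs, fun e => c2 (by rw [← pf_mul (l.le hs) (l.le hs)]; exact l'.into _ e)⟩
  · by_contra h0
    push Not at h0
    have h1 : (P : Subgroup X) ≤ C1 (pf π x) := fun y hy => by
      obtain ⟨s, hs, rfl⟩ := l.onto y hy
      exact mem_centralizer_singleton_iff.2 (by
        rw [← pf_mul (l.le hs) (l.le hx), ← hc s hs, pf_mul (l.le hx) (l.le hs)])
    have xA : pf π x ∈ A := hm.cent _ fun a ha => (mem_centralizer_singleton_iff.1 (h1 (hA ha))).symm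
    have x1 := n1 x hx h0.1
    have xz := nt x hx h0.2
    have h2 : {y | IsConj (pf π x) y} = (A : Set X) \ {1, tb π} := by
      ext y
      simp only [Set.mem_ofPred_eq, Set.mem_sdiff, SetLike.mem_coe, Set.mem_insert_iff,
        Set.mem_singleton_iff, not_or]
      refine ⟨fun e => ?_, fun e => hm.inn _ xA _ e.1 x1 xz e.2.1 e.2.2⟩
      obtain ⟨g, rfl⟩ := isConj_iff.1 e
      refine ⟨hm.nrm.conj_mem _ xA g, fun e => x1 (conj_eq_one_iff.1 e), fun e => xz ?_⟩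
      rw [← mul_inv_cancel_right (tb π) g, ← h.tb_comm g] at e
      simpa using e
    have h3 := Solv.ClassSize.ncard_setOf_isConj (pf π x)
    rw [h2, Set.ncard_sdiff (by
      rintro y (rfl | rfl)
      exacts [A.one_mem, hm.mem]), Set.ncard_pair h.tb_ne.symm, ← Nat.card_coe_set_eq] at h3
    have h4 : Nat.card (A : Set X) = 16 := hm.card
    rw [h4] at h3
    exact P.not_dvd_index (Dvd.dvd.trans (h3 ▸ by norm_num) (index_dvd_of_le h1))

end Cfsg.Lib.GHC
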