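import Cfsg.Agent.GHC.Defs2
import Mathlib.LinearAlgebra.Matrix.Adjugate

/-! # Computations in `GL₃(2)` -/

set_option autoImplicit false

namespace Cfsg.Lib.GHC

open Matrix

/-- The transvection `e₁ ↦ e₁ + e₀`. -/
def W1 : M3 := !![1, 1, 0; 0, 1, 0; 0, 0, 1]
/-- The transvection `e₂ ↦ e₂ + e₀`. -/
def W2 : M3 := !![1, 0, 1; 0, 1, 0; 0, 0, 1]
/-- The transvection `e₂ ↦ e₂ + e₁`. -/
def WF : M3 := !![1, 0, 0; 0, 1, 1; 0, 0, 1]
/-- The first basis vector. -/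
def e0 : V3 := ![1, 0, 0]

/-- The determinant. -/
def d3 (M : M3) : ZMod 2 :=
  M 0 0 * M 1 1 * M 2 2 - M 0 0 * M 1 2 * M 2 1 - M 0 1 * M 1 0 * M 2 2 + M 0 1 * M 1 2 * M 2 0 +
    M 0 2 * M 1 0 * M 2 1 - M 0 2 * M 1 1 * M 2 0

theorem inv_of_d3 {M : M3} (h : d3 M = 1) : M * M.adjugate = 1 := by
  rw [mul_adjugate, det_fin_three, ← d3, h, one_smul]

/-- The matrix with given rows. -/
def rows (a b c : V3) : M3 := Matrix.of ![a, b, c]

theorem rows_eta (M : M3) : rows (M 0) (M 1) (M 2) = M := by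
  ext i j; fin_cases i <;> rfl

theorem conj_inv_aux : ∀ a b c : V3, rows a b c * rows a b c = 1 → rows a b c ≠ 1 →
    ∃ a' b' c' : V3, d3 (rows a' b' c') = 1 ∧ rows a' b' c' * rows a b c = W1 * rows a' b' c' := by
  decide +kernel

theorem conj_four_aux : ∀ a b c : V3, rows a b c * rows a b c ≠ 1 →
    rows a b c * rows a b c * (rows a b c * rows a b c) = 1 →
    ∃ a' b' c' : V3, d3 (rows a' b' c') = 1 ∧
      rows a' b' c' * rows a b c = W1 * WF * rows a' b' c' := by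
  decide +kernel

theorem fix_four_aux : ∀ a b c : V3, rows a b c * rows a b c ≠ 1 →
    rows a b c * rows a b c * (rows a b c * rows a b c) = 1 → ∀ v : V3, rows a b c *ᵥ v = v →
      v ≠ 0 → ∀ w : V3, (rows a b c * rows a b c) *ᵥ w + w ≠ 0 →
        v = (rows a b c * rows a b c) *ᵥ w + w := by
  decide +kernel

theorem trans_aux : ∀ v : V3, v ≠ 0 →
    ∃ a' b' c' : V3, d3 (rows a' b' c') = 1 ∧ rows a' b' c' *ᵥ v = e0 := by
  decide +kernel

theorem conj_inv {M : M3} (h1 : M * M = 1) (h2 : M ≠ 1) : ∃ P : M3, d3 P = 1 ∧ P * M = W1 * P := by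
  rw [← rows_eta M] at h1 h2 ⊢
  obtain ⟨a, b, c, h⟩ := conj_inv_aux _ _ _ h1 h2
  exact ⟨_, h⟩

theorem conj_four {M : M3} (h1 : M * M ≠ 1) (h2 : M * M * (M * M) = 1) :
    ∃ P : M3, d3 P = 1 ∧ P * M = W1 * WF * P := by
  rw [← rows_eta M] at h1 h2 ⊢
  obtain ⟨a, b, c, h⟩ := conj_four_aux _ _ _ h1 h2
  exact ⟨_, h⟩

theorem fix_four {M : M3} (h1 : M * M ≠ 1) (h2 : M * M * (M * M) = 1) {v w : V3}
    (h3 : M *ᵥ v = v) (h4 : v ≠ 0) (h5 : (M * M) *ᵥ w + w ≠ 0) : v = (M * M) *ᵥ w + w := by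
  rw [← rows_eta M] at h1 h2 h3 h5 ⊢
  exact fix_four_aux _ _ _ h1 h2 v h3 h4 w h5

theorem trans_e0 {v : V3} (h : v ≠ 0) : ∃ P : M3, d3 P = 1 ∧ P *ᵥ v = e0 := by
  obtain ⟨a, b, c, h⟩ := trans_aux v h
  exact ⟨_, h⟩

theorem eq_one_of_fix {M : M3} (h : ∀ v : V3, M *ᵥ v = v) : M = 1 :=
  Matrix.toLin'.injective (LinearMap.ext fun v => by
    rw [Matrix.toLin'_apply, Matrix.toLin'_apply, h, one_mulVec])

theorem add_self (v : V3) : v + v = 0 := by revert v; decide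

theorem eq_of_add {v w : V3} (h : v + w = 0) : v = w := by revert v w; decide

end Cfsg.Lib.GHC
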