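import Cfsg.Agent.GHC.Defs2

/-! The cases `N1` and `N2` (no involution outside `E`) do not occur in a simple group. -/

set_option autoImplicit false

namespace Cfsg.Lib.GHC

open Subgroup Cfsg.Lib.Trans Cfsg.Lib.Gold
open scoped commutatorElement

variable {G X : Type*} [Group G] [Group X] {t : G}

open Classical in
/-- `π` as a partial function on `G`. -/
noncomputable def pf (π : C1 t →* X) (g : G) : X := if h : g ∈ C1 t then π ⟨g, h⟩ else 1

theorem pf_eq_1 : type_of% @pf.eq_1 := @pf.eq_1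

variable {π : C1 t →* X} {a b : G}

theorem pf_eq (ha : a ∈ C1 t) : pf π a = π ⟨a, ha⟩ := dif_pos ha

theorem pf_mul (ha : a ∈ C1 t) (hb : b ∈ C1 t) : pf π (a * b) = pf π a * pf π b := by
  rw [pf_eq ha, pf_eq hb, pf_eq (mul_mem ha hb), ← map_mul]; rfl

theorem pf_inv (ha : a ∈ C1 t) : pf π a⁻¹ = (pf π a)⁻¹ := by
  rw [pf_eq ha, pf_eq (inv_mem ha), ← map_inv]; rfl

theorem pf_pow (ha : a ∈ C1 t) (n : ℕ) : pf π (a ^ n) = pf π a ^ n := by
  rw [pf_eq ha, pf_eq (pow_mem ha n), ← map_pow]; rfl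

theorem pf_one : pf π 1 = 1 := by rw [pf_eq (one_mem _)]; exact map_one π

theorem t_mem : t ∈ C1 t := mem_centralizer_singleton_iff.2 rfl

theorem pf_t : pf π t = tb π := pf_eq t_mem

theorem pf_conj (ha : a ∈ C1 t) (hb : b ∈ C1 t) :
    pf π (a * b * a⁻¹) = pf π a * pf π b * (pf π a)⁻¹ := by
  rw [pf_mul (mul_mem ha hb) (inv_mem ha), pf_mul ha hb, pf_inv ha]

theorem pf_comm (ha : a ∈ C1 t) (hb : b ∈ C1 t) : pf π ⁅a, b⁆ = ⁅pf π a, pf π b⁆ := by
  rw [commutatorElement_def, pf_mul (mul_mem (mul_mem ha hb) (inv_mem ha)) (inv_mem hb),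
    pf_conj ha hb, pf_inv hb, commutatorElement_def]

/-- The elements of `S` over `E`. -/
def ov (π : C1 t →* X) (S : Subgroup G) (E : Subgroup X) : Subgroup G :=
  S ⊓ (E.comap π).map (C1 t).subtype

theorem ov_eq_1 : type_of% @ov.eq_1 := @ov.eq_1

theorem mem_ov {S : Subgroup G} {E : Subgroup X} (hS : S ≤ C1 t) :
    a ∈ ov π S E ↔ a ∈ S ∧ pf π a ∈ E := by
  refine ⟨?_, fun h => ⟨h.1, ⟨a, hS h.1⟩, by
    have := h.2
    rwa [pf_eq (hS h.1)] at this, rfl⟩⟩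
  rintro ⟨h1, ⟨x, hx⟩, h2, rfl⟩
  exact ⟨h1, by rw [coe_subtype, pf_eq hx]; exact h2⟩

/-- `S` is a 2-subgroup of `C(t)` mapped onto `P`. -/
structure Lf (π : C1 t →* X) (S : Subgroup G) (P : Subgroup X) : Prop where
  le : S ≤ C1 t
  two : IsPGroup 2 S
  into : ∀ s ∈ S, pf π s ∈ P
  onto : ∀ y ∈ P, ∃ s ∈ S, pf π s = y

theorem Lf.ov {S : Subgroup G} {P E : Subgroup X} (l : Lf π S P) (hE : E ≤ P) :
    Lf π (ov π S E) E :=
  ⟨inf_le_left.trans l.le, l.two.to_le inf_le_left, fun _ hs => ((mem_ov l.le).1 hs).2,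
    fun y hy => by
      obtain ⟨s, hs, rfl⟩ := l.onto y (hE hy)
      exact ⟨s, (mem_ov l.le).2 ⟨hs, hy⟩, rfl⟩⟩

namespace St

variable (h : St t π)
include h

theorem inj {S : Subgroup G} (hS : S ≤ C1 t) (h2 : IsPGroup 2 S) (ha : a ∈ S) (hb : b ∈ S)
    (e : pf π a = pf π b) : a = b := by
  rw [pf_eq (hS ha), pf_eq (hS hb)] at e
  exact congrArg Subtype.val (h.eq_of_mem (isPGroup_subgroupOf h2 (C1 t)) ha hb e)

theorem linj {S : Subgroup G} {P : Subgroup X} (l : Lf π S P) (ha : a ∈ S) (hb : b ∈ S)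
    (e : pf π a = pf π b) : a = b := h.inj l.le l.two ha hb e

theorem lcard {S : Subgroup G} {P : Subgroup X} (l : Lf π S P) : Nat.card S = Nat.card P :=
  Nat.card_congr (Equiv.ofBijective (fun s : S => (⟨pf π s, l.into s s.2⟩ : P))
    ⟨fun x y e => Subtype.ext (h.linj l x.2 y.2 (congrArg Subtype.val e)), fun y => by
      obtain ⟨s, hs, e⟩ := l.onto y y.2
      exact ⟨⟨s, hs⟩, Subtype.ext e⟩⟩)

variable [Finite G]

theorem map_eq {P : Subgroup X} (hP : IsPGroup 2 P) {S : Subgroup (C1 t)}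
    (hS : IsSylowIn 2 S (P.comap π)) : S.map π = P := by
  have : Fact (Nat.Prime 2) := ⟨Nat.prime_two⟩
  have := h.finite
  refine eq_of_le_of_card_ge (map_le_iff_le_comap.2 hS.le) ?_
  obtain ⟨n, hn⟩ := IsPGroup.iff_card.1 hP
  have h1 : P.comap π ≤ S ⊔ π.ker := by
    rw [← relIndex_eq_one]
    have a : (S ⊔ π.ker).relIndex (P.comap π) ∣ 2 ^ n := by
      refine (relIndex_dvd_of_le_left _ le_sup_right).trans ?_
      rw [← hn, ← MonoidHom.comap_bot, relIndex_comap, map_comap_eq_self_of_surjective h.surj,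
        relIndex_bot_left]
    obtain ⟨m, -, b⟩ := (Nat.dvd_prime_pow Nat.prime_two).1 a
    rcases m with _ | m
    · simpa using b
    · exact absurd (b ▸ dvd_pow_self 2 (by omega)) (hS.not_dvd_relIndex_of_le le_sup_left)
  refine Trans.card_le_of_le ((map_comap_eq_self_of_surjective h.surj P).ge.trans
    ((map_mono h1).trans ?_))
  rw [Subgroup.map_sup, (Subgroup.map_eq_bot_iff _).2 le_rfl, sup_bot_eq]

theorem exists_lf {S₀ : Subgroup G} {P : Subgroup X} (hP : IsPGroup 2 P) (h1 : S₀ ≤ C1 t)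
    (h2 : IsPGroup 2 S₀) (h3 : ∀ s ∈ S₀, pf π s ∈ P) :
    ∃ S, S₀ ≤ S ∧ Lf π S P ∧ (¬ 2 ∣ P.index → IsSylowIn 2 S (C1 t)) := by
  have : Fact (Nat.Prime 2) := ⟨Nat.prime_two⟩
  obtain ⟨R, hR, h4⟩ := exists_isSylowIn_ge (isPGroup_subgroupOf h2 (C1 t))
    (H := P.comap π) fun s hs => by
      have := h3 s hs
      rwa [pf_eq s.2] at this
  refine ⟨R.map (C1 t).subtype, fun s hs => ⟨⟨s, h1 hs⟩, h4 hs, rfl⟩,
    ⟨map_subtype_le _, hR.isPGroup.map _, ?_, fun y hy => ?_⟩, fun hi => ?_⟩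
  · rintro _ ⟨s, hs, rfl⟩
    rw [coe_subtype, pf_eq s.2]
    exact hR.le hs
  · obtain ⟨s, hs, rfl⟩ := (h.map_eq hP hR).ge hy
    exact ⟨s, ⟨s, hs, rfl⟩, pf_eq s.2⟩
  · obtain ⟨T, hT⟩ := (hR.trans le_top (by
      rwa [relIndex_top_right, index_comap_of_surjective _ h.surj])).exists_sylow_eq
    exact hT ▸ isSylowIn_map_subtype T

/-- a Sylow subgroup of `C(t)` over a given Sylow subgroup of `X` -/
theorem exists_lf_syl (P : Sylow 2 X) (hz : tb π ∈ (P : Subgroup X)) :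
    ∃ S, t ∈ S ∧ Lf π S P ∧ IsSylowIn 2 S (C1 t) := by
  have : Fact (Nat.Prime 2) := ⟨Nat.prime_two⟩
  have := h.finite
  obtain ⟨S, h1, h2, h3⟩ := h.exists_lf (S₀ := zpowers t) P.isPGroup' (zpowers_le.2 t_mem)
    (Local.isPGroup_zpowers_of_orderOf_two h.ord) (by
      rintro _ ⟨n, rfl⟩
      have : pf π (t ^ n) = tb π ^ n := by
        rw [pf_eq (zpow_mem t_mem n), tb, ← map_zpow]; rfl
      exact this ▸ zpow_mem hz n)
  exact ⟨S, h1 (mem_zpowers t), h2, h3 P.not_dvd_index⟩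

theorem nb_mover [IsSimpleGroup G] (hG : ¬ IsMulCommutative G) {E : Subgroup X}
    (hn : NB E (tb π)) (P : Sylow 2 X) : ∃ S B, B ≤ S ∧ Lf π S P ∧ Lf π B E ∧ t ∈ B ∧
      ∃ k ∈ Ns B, k * t * k⁻¹ ≠ t := by
  have := hn.nrm
  have hE : E ≤ P := IsPGroup.le_sylow_of_normal
    (fun e => ⟨1, Subtype.ext (by simpa [sq] using hn.sq e e.2)⟩) P
  obtain ⟨S, h1, l, h3⟩ := h.exists_lf_syl P (hE hn.mem)
  have l' := l.ov hE
  obtain ⟨k, hk, h4⟩ := exists_mover hG h.ord h3 (E := ov π S E) inf_le_left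
    (fun x hx => h.linj l' (mul_mem hx hx) (one_mem _) (by
      rw [pf_mul (l'.le hx) (l'.le hx), hn.sq _ (l'.into x hx), pf_one]))
    fun x hx e => (mem_ov l.le).2 ⟨hx, hn.inv _ (by
      rw [← pf_mul (l.le hx) (l.le hx), e, pf_one])⟩
  exact ⟨S, _, inf_le_left, l, l', (mem_ov l.le).2 ⟨h1, pf_t (π := π) ▸ hn.mem⟩, k, hk,
    fun e => h4 (mul_inv_eq_iff_eq_mul.1 e)⟩

theorem not_n2 [IsSimpleGroup G] (hG : ¬ IsMulCommutative G) {E : Subgroup X}
    {u : X} (hn : N2 E (tb π) u) : False := by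
  have := h.finite
  have t1 : t ≠ 1 := fun e => by have := h.ord; rw [e, orderOf_one] at this; omega
  obtain ⟨P, hP⟩ := (IsPGroup.of_card (p := 2) (G := zpowers u) (n := 2) (by
    rw [Nat.card_zpowers]
    exact orderOf_eq_prime_pow (n := 1) (by rw [pow_one, sq, hn.su]; exact h.tb_ne) (by
      rw [show 2 ^ (1 + 1) = 2 * 2 by norm_num, pow_mul, sq u, hn.su, sq, h.tb_sq]))).exists_le_sylow
  obtain ⟨S, B, hBS, l, l', tB, k, hk, h1⟩ := h.nb_mover hG hn.toNB P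
  obtain ⟨w, hw, rfl⟩ := l.onto u (hP (mem_zpowers u))
  have wC := l.le hw
  have w2 : w * w = t := h.linj l (mul_mem hw hw) (hBS tB) (by rw [pf_mul wC wC, hn.su, pf_t])
  have c1 : ∀ e ∈ B, k * w * k⁻¹ * e = e * (k * w * k⁻¹) := fun e he => by
    have h2 := mem_normalizer_conj' hk he
    have h3 : w * (k⁻¹ * e * k) = k⁻¹ * e * k * w :=
      h.linj l (mul_mem hw (hBS h2)) (mul_mem (hBS h2) hw) (by
        rw [pf_mul wC (l'.le h2), pf_mul (l'.le h2) wC, hn.cu _ (l'.into _ h2)])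
    calc _ = k * (w * (k⁻¹ * e * k)) * k⁻¹ := by group
      _ = _ := by rw [h3]; group
  have vC : k * w * k⁻¹ ∈ C1 t := mem_centralizer_singleton_iff.2 (c1 t tB)
  have xB := mem_normalizer_conj hk tB
  have := hn.cq (pf π (k * w * k⁻¹)) fun y hy => by
    obtain ⟨e, he, rfl⟩ := l'.onto y hy
    rw [← pf_mul vC (l'.le he), c1 e he, pf_mul (l'.le he) vC]
  rw [← pf_mul vC vC, conj_mul, w2] at this
  rcases this with e | e
  · exact t1 (conj_eq_one_iff.1 (h.linj l' xB (one_mem _) (e.trans pf_one.symm)))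
  · exact h1 (h.linj l' xB tB (e.trans pf_t.symm))

theorem not_n1 [IsSimpleGroup G] (hG : ¬ IsMulCommutative G) {E : Subgroup X}
    (hn : N1 E (tb π)) : False := by
  have := h.finite
  have := hn.nrm
  have t1 : t ≠ 1 := fun e => by have := h.ord; rw [e, orderOf_one] at this; omega
  obtain ⟨P₀⟩ : Nonempty (Sylow 2 X) := inferInstance
  obtain ⟨-, B, -, -, l', tB, k, hk, h1⟩ := h.nb_mover hG hn.toNB P₀
  have xB := mem_normalizer_conj hk tB
  have ib : ∀ {a b : G}, a ∈ B → b ∈ B → pf π a = pf π b → a = b := h.linj l'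
  have x1 : pf π (k * t * k⁻¹) ≠ 1 := fun e =>
    t1 (conj_eq_one_iff.1 (ib xB (one_mem _) (e.trans pf_one.symm)))
  have xz : pf π (k * t * k⁻¹) ≠ tb π := fun e => h1 (ib xB tB (e.trans pf_t.symm))
  obtain ⟨c, c1, c4, e, he, ce⟩ := hn.ex _ (l'.into _ xB) x1 xz
  obtain ⟨P, hP⟩ := (show IsPGroup 2 (zpowers c) from fun y => ⟨3, by
    obtain ⟨_, n, rfl⟩ := y
    refine Subtype.ext ?_
    change (c ^ n) ^ 2 ^ 3 = 1
    rw [← zpow_natCast, ← zpow_mul, mul_comm, zpow_mul, zpow_natCast,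
      show 2 ^ 3 = 4 + 4 by norm_num, pow_add, hn.sq _ c4, one_zpow]⟩).exists_le_sylow
  have hE : E ≤ P := IsPGroup.le_sylow_of_normal
    (fun e => ⟨1, Subtype.ext (by simpa [sq] using hn.sq e e.2)⟩) P
  obtain ⟨S, hBS, l, -⟩ := h.exists_lf P.isPGroup' l'.le l'.two fun s hs => hE (l'.into s hs)
  have mB : ∀ r ∈ S, pf π r ∈ E → r ∈ B := fun r hr e => by
    obtain ⟨b, hb, e1⟩ := l'.onto _ e
    rwa [← h.linj l (hBS hb) hr e1]
  obtain ⟨w, hw, rfl⟩ := l.onto c (hP (mem_zpowers c))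
  obtain ⟨f, hf, rfl⟩ := l'.onto e he
  have wC := l.le hw
  have fC := l'.le hf
  have w4 : w ^ 4 ∈ B := mB _ (pow_mem hw 4) (by rwa [pf_pow wC])
  have pm : pf π ⁅w * w, f⁆ = ⁅pf π w * pf π w, pf π f⁆ := by
    rw [pf_comm (mul_mem wC wC) fC, pf_mul wC wC]
  have mm : ⁅w * w, f⁆ ∈ B := mB ⁅w * w, f⁆ (mul_mem (mul_mem (mul_mem (mul_mem hw hw) (hBS hf)) (inv_mem (mul_mem hw hw)))
    (inv_mem (hBS hf))) (by
    rw [pm, commutatorElement_def]
    exact mul_mem (this.conj_mem _ he _) (inv_mem he))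
  have m1 : ⁅w * w, f⁆ ≠ 1 := fun e => ce (by rw [← pm, e, pf_one])
  have wx : w * (k * t * k⁻¹) = k * t * k⁻¹ * w :=
    h.linj l (mul_mem hw (hBS xB)) (mul_mem (hBS xB) hw) (by
      rw [pf_mul wC (l'.le xB), pf_mul (l'.le xB) wC, c1])
  have dC : k⁻¹ * w * k ∈ C1 t := mem_centralizer_singleton_iff.2 (by
    calc _ = k⁻¹ * (w * (k * t * k⁻¹)) * k := by group
      _ = _ := by rw [wx]; group)
  have f' := mem_normalizer_conj' hk hf
  have w4' := mem_normalizer_conj' hk w4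
  have mm' := mem_normalizer_conj' hk mm
  have d4 : pf π (k⁻¹ * w * k) ^ 4 = pf π (k⁻¹ * w ^ 4 * k) := by
    rw [← pf_pow dC]; congr 1
    simpa using conj_pow (a := k⁻¹) (b := w) (i := 4)
  have dm : ⁅pf π (k⁻¹ * w * k) * pf π (k⁻¹ * w * k), pf π (k⁻¹ * f * k)⁆ =
      pf π (k⁻¹ * ⁅w * w, f⁆ * k) := by
    rw [← pf_mul dC dC, ← pf_comm (mul_mem dC dC) (l'.le f')]; congr 1
    simp only [commutatorElement_def]; group
  have d4E : pf π (k⁻¹ * w * k) ^ 4 ∈ E := d4 ▸ l'.into _ w4'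
  have dm1 : ⁅pf π (k⁻¹ * w * k) * pf π (k⁻¹ * w * k), pf π (k⁻¹ * f * k)⁆ ≠ 1 := fun e => by
    rw [dm] at e
    have := ib mm' (one_mem _) (e.trans pf_one.symm)
    exact m1 (conj_eq_one_iff.1 (show k⁻¹ * _ * k⁻¹⁻¹ = 1 by rwa [inv_inv]))
  rcases hn.y1 _ d4E _ (l'.into _ f') dm1 with e | e
  · have e1 := hn.y2 _ _ e c4 _ (l'.into _ f') dm1 _ he ce
    rw [d4] at e
    have e2 := ib w4' tB (e.trans pf_t.symm)
    rw [← pf_pow wC] at e1
    rw [ib w4 tB (e1.trans pf_t.symm)] at e2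
    exact h1 (by
      calc k * t * k⁻¹ = k * (k⁻¹ * t * k) * k⁻¹ := by rw [e2]
        _ = t := by group)
  · rcases hn.y1 _ c4 _ he ce with e1 | e1
    · rw [hn.y2 _ _ e1 d4E _ he ce _ (l'.into _ f') dm1] at e
      exact dm1 (by simpa using e)
    · rw [d4, dm, ← pf_t, ← pf_mul t_mem (l'.le mm')] at e
      have e2 := ib w4' (mul_mem tB mm') e
      have e3 : w ^ 4 = k * t * k⁻¹ * ⁅w * w, f⁆ := by
        calc _ = k * (k⁻¹ * w ^ 4 * k) * k⁻¹ := by group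
          _ = _ := by rw [e2]; group
      rw [← pf_pow wC, e3, pf_mul (l'.le xB) (l'.le mm), pm] at e1
      exact xz (mul_right_cancel e1)

end St

end Cfsg.Lib.GHC
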