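import Cfsg.Agent.GHC.Mat
import Cfsg.Agent.GHB.A5

/-! # The action of `L₃(2)` on `E₁₆`: basic facts and the free case -/

set_option autoImplicit false

namespace Cfsg.Lib.GHC

open Subgroup Cfsg.Lib.Trans Cfsg.Lib.Gold Cfsg.Lib.Solv Cfsg.Lib.GHB
open scoped commutatorElement Matrix

variable {X : Type*} [Group X] {Q E : Subgroup X} {z : X} {ρ : X →* M3} {ν : X → V3}
  {a b c d e q w x y : X}

theorem two_mul_le [Finite X] {A B : Subgroup X} (h : A ≤ B) (h1 : x ∈ B) (h2 : x ∉ A) :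
    2 * Nat.card A ≤ Nat.card B := by
  obtain ⟨k, hk⟩ := card_dvd_of_le h
  have := Trans.card_lt_of_lt (lt_of_le_of_ne h fun e => h2 (e ▸ h1))
  rcases k with _ | _ | k
  · have := Nat.card_pos (α := B); omega
  · omega
  · nlinarith

theorem mem_zp (h : x * x = 1) (hy : y ∈ zpowers x) : y = 1 ∨ y = x := by
  obtain ⟨k, rfl⟩ := hy
  rcases Int.even_or_odd' k with ⟨k, rfl | rfl⟩
  · left; simp only [zpow_mul, zpow_ofNat, sq, h, one_zpow]
  · right; simp only [zpow_add, zpow_mul, zpow_ofNat, sq, h, one_zpow, one_mul, pow_one]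

theorem conj_comm (y x e : X) : ⁅y * x * y⁻¹, y * e * y⁻¹⁆ = y * ⁅x, e⁆ * y⁻¹ := by
  simp only [commutatorElement_def]; group

theorem cm_fix (h : w * w * x = x * (w * w)) (h2 : (⁅w, x⁆)⁻¹ = ⁅w, x⁆) :
    ⁅w, x⁆ * w = w * ⁅w, x⁆ := by
  rw [eq_comm, ← mul_inv_eq_iff_eq_mul]
  calc _ = w * w * x * (w * w)⁻¹ * (w * x⁻¹ * w⁻¹) := by rw [commutatorElement_def]; group
    _ = (⁅w, x⁆)⁻¹ := by rw [h, commutatorElement_def]; group
    _ = _ := h2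

namespace Fr

variable (h : Fr Q E z ρ ν)
include h

theorem cj (x : X) (he : e ∈ E) : x * e * x⁻¹ ∈ E := h.nE.conj_mem _ he x

theorem inv (he : e ∈ E) : e⁻¹ = e := inv_eq_of_mul_eq_one_right (h.sq e he)

theorem zz : z * z = 1 := h.sq z h.mem

theorem cz (x : X) : x * z * x⁻¹ = z := by rw [h.zc, mul_inv_cancel_right]

theorem cm (x : X) (he : e ∈ E) : ⁅x, e⁆ ∈ E := mul_mem (h.cj x he) (inv_mem he)

theorem ν_cm (x : X) (he : e ∈ E) : ν ⁅x, e⁆ = ρ x *ᵥ ν e + ν e := by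
  rw [commutatorElement_def, h.add _ (h.cj x he) _ (inv_mem he), h.act x e he, h.inv he]

theorem ν_z : ν z = 0 := (h.zero z h.mem).2 (Or.inr rfl)

theorem ν_one : ν 1 = 0 := (h.zero 1 (one_mem _)).2 (Or.inl rfl)

theorem eq_of (ha : a ∈ E) (hb : b ∈ E) (e : ν a = ν b) : a = b ∨ a = z * b := by
  have := (h.zero _ (mul_mem ha (inv_mem hb))).1 (by rw [h.add _ ha _ (inv_mem hb), h.inv hb, e, add_self])
  rwa [mul_inv_eq_one, mul_inv_eq_iff_eq_mul] at this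

theorem mem_of (e : ρ x = ρ y) : x * y⁻¹ ∈ Q := by
  rw [← h.ker, map_mul, e, ← map_mul, mul_inv_cancel, map_one]

omit h in
theorem ρ_conj {P M : M3} (hy : ρ y = P) (e : P * ρ x = M * P) : ρ (y * x * y⁻¹) = M := by
  rw [map_mul, map_mul, hy, e, ← hy, mul_assoc, ← map_mul, mul_inv_cancel, map_one, mul_one]

theorem surj' {M : M3} (hM : d3 M = 1) : ∃ x, ρ x = M := h.surj _ _ (inv_of_d3 hM)

theorem cm_left (hq : q ∈ Q) (he : e ∈ E) : ⁅q * w, e⁆ = ⁅w, e⁆ := by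
  have := h.cent q hq _ (h.cj w he)
  calc _ = q * (w * e * w⁻¹) * q⁻¹ * e⁻¹ := by rw [commutatorElement_def]; group
    _ = _ := by rw [this, commutatorElement_def]; group

theorem cm_congr (e1 : ρ x = ρ y) (he : e ∈ E) : ⁅x, e⁆ = ⁅y, e⁆ := by
  rw [← h.cm_left (w := y) (h.mem_of e1) he, inv_mul_cancel_right]

theorem cm_mul (x : X) (ha : a ∈ E) (hb : b ∈ E) : ⁅x, a * b⁆ = ⁅x, a⁆ * ⁅x, b⁆ := by
  rw [show ⁅x, a * b⁆ = ⁅x, a⁆ * (a * ⁅x, b⁆ * a⁻¹) by simp only [commutatorElement_def]; group,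
    h.cent a (h.le ha) _ (h.cm x hb), mul_inv_cancel_right]

theorem mem_of_cent (hx : ∀ e ∈ E, x * e = e * x) : x ∈ Q := by
  refine (h.ker x).1 (eq_one_of_fix fun v => ?_)
  obtain ⟨e, he, rfl⟩ := h.onto v
  rw [← h.act x e he, hx e he, mul_inv_cancel_right]

theorem exists_W1 (h1 : w * w ∈ Q) (h2 : w ∉ Q) : ∃ y, ρ (y * w * y⁻¹) = W1 := by
  obtain ⟨P, p1, p2⟩ := conj_inv (M := ρ w) (by rw [← map_mul, h.ker]; exact h1)
    (by rw [Ne, h.ker]; exact h2)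
  obtain ⟨y, hy⟩ := h.surj' p1
  exact ⟨y, ρ_conj hy p2⟩

theorem exists_conj (h1 : w * w ∈ Q) (h2 : w ∉ Q) (h3 : x * x ∈ Q) (h4 : x ∉ Q) :
    ∃ y, ρ (y * w * y⁻¹) = ρ x := by
  obtain ⟨a, ha⟩ := h.exists_W1 h1 h2
  obtain ⟨b, hb⟩ := h.exists_W1 h3 h4
  refine ⟨b⁻¹ * a, ?_⟩
  rw [show b⁻¹ * a * w * (b⁻¹ * a)⁻¹ = b⁻¹ * (a * w * a⁻¹) * b by group, map_mul, map_mul, ha,
    ← hb, ← map_mul, ← map_mul]
  congr 1; group

theorem inv_of {M : M3} (e : ρ x = M) (h1 : M * M = 1) (h2 : M ≠ 1) : x * x ∈ Q ∧ x ∉ Q :=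
  ⟨by rw [← h.ker, map_mul, e, h1], by rw [← h.ker, e]; exact h2⟩

theorem exists_e0 (ha : a ∈ E) (h1 : a ≠ 1) (h2 : a ≠ z) : ∃ y, ν (y * a * y⁻¹) = e0 := by
  obtain ⟨P, p1, p2⟩ := trans_e0 (v := ν a) (by rw [Ne, h.zero a ha]; tauto)
  obtain ⟨y, hy⟩ := h.surj' p1
  exact ⟨y, by rw [h.act y a ha, hy, p2]⟩

theorem free_all (hT : ¬ Tv Q E z) (h1 : w * w ∈ Q) (h2 : w ∉ Q) : ∃ e ∈ E, ⁅w, e⁆ = z := by
  unfold Tv at hT
  push Not at hT
  obtain ⟨x, h3, h4, e, he, hz⟩ := hT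
  obtain ⟨y, hy⟩ := h.exists_conj h3 h4 h1 h2
  exact ⟨_, h.cj y he, by rw [← h.cm_congr hy (h.cj y he), conj_comm, hz, h.cz]⟩

variable [Finite X]

theorem free (hT : ¬ Tv Q E z) (h1 : w * w ∈ Q) (h2 : w ∉ Q) :
    Nat.card (C1 w ⊓ E : Subgroup X) ≤ 4 := by
  have := zpowers_normal h.zc
  obtain ⟨e, he, hz⟩ := h.free_all hT h1 h2
  have a1 : ∃ b ∈ E, ⁅w, b⁆ ∉ zpowers z := by
    by_contra n
    push Not at n
    refine h2 ((h.ker w).1 (eq_one_of_fix fun v => ?_))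
    obtain ⟨b, hb, rfl⟩ := h.onto v
    refine eq_of_add ?_
    rw [← h.ν_cm w hb]
    exact (h.zero _ (h.cm w hb)).2 (mem_zp h.zz (n b hb))
  obtain ⟨b, hb, n⟩ := a1
  have a2 := two_mul_le (Cm_le (K := zpowers z) (B := E) (g := w)) hb fun m => n m.2
  have a3 := two_mul_le (A := C1 w ⊓ E) (B := Cm (zpowers z) E w) (x := e) (fun x hx => ⟨hx.2, by
    rw [commutatorElement_eq_one_iff_mul_comm.2 (mem_centralizer_singleton_iff.1 hx.1).symm]
    exact one_mem _⟩) ⟨he, hz ▸ mem_zpowers _⟩ fun m => h.ne (by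
      rw [← hz, commutatorElement_eq_one_iff_mul_comm, mem_centralizer_singleton_iff.1 m.1])
  rw [h.card] at a2
  omega

theorem exists_cm (hT : ¬ Tv Q E z) (h1 : w * w ∈ Q) (h2 : w ∉ Q) (he : e ∈ E)
    (hc : e * w = w * e) : ∃ x ∈ E, ⁅x, w⁆ = e := by
  have a := h.free hT h1 h2
  refine PG.exists_commutator_eq (S := C1 w ⊓ E) (fun x hx => ?_) (by rw [h.card]; nlinarith)
    ⟨mem_centralizer_singleton_iff.2 hc, he⟩
  rw [← commutatorElement_inv, h.inv (h.cm w hx)]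
  exact ⟨mem_centralizer_singleton_iff.2 (cm_fix (h.cent _ h1 x hx) (h.inv (h.cm w hx))), h.cm w hx⟩

omit h in
theorem mx (h : Fr E E z ρ ν) (hT : ¬ Tv E E z) : MX E z := by
  obtain ⟨w, hw⟩ := h.surj' (M := W1) (by decide)
  obtain ⟨w1, w2⟩ := h.inv_of hw (by decide) (by decide)
  refine ⟨h.nE, h.sq, h.card, by rw [← E.card_mul_index, h.card, h.index], h.mem,
    fun x => h.mem_of_cent, fun w a b => h.free hT b a, fun a b a1 b1 a2 b2 => ?_, ?_,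
    fun a ha b hb a1 a2 b1 b2 => ?_, ?_⟩
  · obtain ⟨y, hy⟩ := h.exists_conj (a2 ▸ one_mem _) a1 (b2 ▸ one_mem _) b1
    have m := h.mem_of hy
    obtain ⟨x, hx, e⟩ := h.exists_cm hT (b2 ▸ one_mem _) b1 m (by
      have c : y * a * y⁻¹ * (y * a * y⁻¹) = 1 := by rw [conj_mul, a2]; simp
      have d := h.inv m
      generalize y * a * y⁻¹ = s at c d
      rw [mul_inv_rev, inv_inv, inv_eq_of_mul_eq_one_right c] at d
      rw [inv_mul_cancel_right, ← d, ← mul_assoc, b2, one_mul])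
    refine (isConj_iff.2 ⟨y, rfl⟩).trans (isConj_iff.2 ⟨x, ?_⟩).symm
    rw [commutatorElement_def] at e
    exact mul_right_cancel e
  · obtain ⟨x, hx, e⟩ := h.exists_cm hT w1 w2 w1 (mul_assoc _ _ _)
    refine ⟨x * w, fun m => w2 (by simpa using mul_mem (inv_mem hx) m), ?_⟩
    calc _ = ⁅x, w⁆ * (w * (x * x) * w⁻¹) * (w * w) := by rw [commutatorElement_def]; group
      _ = 1 := by rw [e, h.sq x hx, mul_one w, mul_inv_cancel, mul_one, h.sq _ w1]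
  · obtain ⟨e, he, hz⟩ := h.free_all hT w1 w2
    have e1 : e ≠ 1 := fun k => h.ne (by rw [← hz, k, commutatorElement_one_right])
    have e2 : e ≠ z := fun k => h.ne (by
      rw [← hz, k, commutatorElement_eq_one_iff_mul_comm, h.zc])
    obtain ⟨y, hy⟩ := h.exists_e0 he e1 e2
    have key : ∀ a ∈ E, a ≠ 1 → a ≠ z → IsConj a e := fun a ha a1 a2 => by
      obtain ⟨x, hx⟩ := h.exists_e0 ha a1 a2
      refine (isConj_iff.2 ⟨x, rfl⟩).trans ?_
      rcases h.eq_of (h.cj x ha) (h.cj y he) (hx.trans hy.symm) with k | k <;> rw [k]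
      · exact (isConj_iff.2 ⟨y, rfl⟩).symm
      · refine (isConj_iff.2 ⟨y * w, ?_⟩).symm
        rw [← h.cz y, ← hz, commutatorElement_def]; group
    exact (key a ha a1 a2).trans (key b hb b1 b2).symm
  · obtain ⟨c, hc⟩ := h.surj' (M := W1 * WF) (by decide)
    exact ⟨c, by rw [← h.ker, map_mul, hc]; decide, by rw [← h.ker, map_pow, hc]; decide⟩

end Fr

end Cfsg.Lib.GHC
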