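import Cfsg.Agent.GHC.X1
import Cfsg.Agent.GHB.A5b

/-! # The action of `L₃(2)` on `E₁₆`: the cases without involutions outside `E` -/

set_option autoImplicit false

namespace Cfsg.Lib.GHC

open Subgroup Cfsg.Lib.Trans Cfsg.Lib.Gold Cfsg.Lib.Solv Cfsg.Lib.GHB
open scoped commutatorElement Matrix

variable {X : Type*} [Group X] {Q E : Subgroup X} {z : X} {ρ : X →* M3} {ν : X → V3}
  {a b c d e f q u w x y : X}

theorem card_zp_le (h : x * x = 1) : Nat.card (zpowers x) ≤ 2 := by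
  rw [Nat.card_zpowers]
  exact Nat.le_of_dvd two_pos (orderOf_dvd_of_pow_eq_one (by rw [sq, h]))

theorem cm_invol (h1 : a * a = 1) (h2 : b * b = 1) : ⁅b, a⁆ = (a * b * (a * b))⁻¹ := by
  rw [commutatorElement_def, inv_eq_of_mul_eq_one_right h1, inv_eq_of_mul_eq_one_right h2,
    mul_inv_rev, mul_inv_rev, inv_eq_of_mul_eq_one_right h1, inv_eq_of_mul_eq_one_right h2]
  group

theorem sq_invol (h : a * a = 1) (hy : y * (a * y * a⁻¹) = a * y * a⁻¹ * y) :
    y * a * (y * a) = ⁅a, y⁆ * (y * y) := by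
  calc _ = y * (a * y * a⁻¹) * (a * a) := by group
    _ = _ := by rw [hy, h, commutatorElement_def]; group

namespace Fr

variable (h : Fr Q E z ρ ν)
include h

theorem cm_one (hT : Tv Q E z) (h1 : w * w ∈ Q) (h2 : w ∉ Q) (he : e ∈ E)
    (h3 : ρ w *ᵥ ν e + ν e = 0) : ⁅w, e⁆ = 1 :=
  ((h.zero _ (h.cm w he)).1 ((h.ν_cm w he).trans h3)).resolve_right (hT w h1 h2 e he)

theorem exists_inv (h1 : w * w = 1) (h2 : w ∉ Q) {M : M3} (h3 : d3 M = 1) (h4 : M * M = 1)
    (h5 : M ≠ 1) : ∃ a, a * a = 1 ∧ ρ a = M := by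
  obtain ⟨x, hx⟩ := h.surj' h3
  obtain ⟨y, hy⟩ := h.exists_conj (h1 ▸ one_mem _) h2 (h.inv_of hx h4 h5).1 (h.inv_of hx h4 h5).2
  exact ⟨_, by rw [conj_mul, h1]; simp, hy.trans hx⟩

theorem no_inv [Finite X] (h4 : SectionalPRankLE 2 4 X) (hT : Tv Q E z) (a2 : a * a = 1)
    (ha : ρ a = W1) (hf : ρ f = WF) (b2 : b * b = 1) (hb : a * (f * a * f⁻¹) * b⁻¹ ∈ E) : False := by
  obtain ⟨a3, a4⟩ := h.inv_of ha (by decide) (by decide)
  obtain ⟨f3, f4⟩ := h.inv_of hf (by decide) (by decide)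
  obtain ⟨q, hq, e1⟩ := h.onto ![0, 1, 0]
  have hp := h.cm a hq
  have np : ν ⁅a, q⁆ = e0 := by rw [h.ν_cm a hq, ha, e1]; decide
  have k1 : ∀ e ∈ E, ⁅a, e⁆ ∈ zpowers ⁅a, q⁆ := fun e he => by
    have : ∀ v : V3, W1 *ᵥ v + v = 0 ∨ W1 *ᵥ (v + ![0, 1, 0]) + (v + ![0, 1, 0]) = 0 := by decide
    rcases this (ν e) with k | k
    · rw [h.cm_one hT a3 a4 he (ha ▸ k)]; exact one_mem _
    · have := h.cm_one hT a3 a4 (mul_mem he hq) (by rw [h.add _ he _ hq, ha, e1, k])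
      rw [h.cm_mul a he hq, mul_eq_one_iff_eq_inv] at this
      exact this ▸ inv_mem (mem_zpowers _)
  generalize ⁅a, q⁆ = p at hp np k1
  have pa : a * p * a⁻¹ = p := mul_inv_eq_one.1 (h.cm_one hT a3 a4 hp (by rw [ha, np]; decide))
  have pf : f * p * f⁻¹ = p := mul_inv_eq_one.1 (h.cm_one hT f3 f4 hp (by rw [hf, np]; decide))
  have cj : ∀ {g m : X}, g * p * g⁻¹ = p → m ∈ zpowers p → g * m * g⁻¹ ∈ zpowers p := by
    rintro g _ e ⟨k, rfl⟩
    exact ⟨k, by simp only [← conj_zpow, e]⟩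
  have k2 : ∀ e ∈ E, ⁅f * a * f⁻¹, e⁆ ∈ zpowers p := fun e he => by
    have := cj pf (k1 _ (h.cj f⁻¹ he))
    rwa [← conj_comm, show f * (f⁻¹ * e * f⁻¹⁻¹) * f⁻¹ = e by group] at this
  have c2 : f * a * f⁻¹ * (f * a * f⁻¹) = 1 := by rw [conj_mul, a2]; simp
  have hc : ρ (f * a * f⁻¹) = W1 * W2 := ρ_conj hf (by rw [ha]; decide)
  generalize f * a * f⁻¹ = c at hb k2 c2 hc
  have k3 : ⁅c, a⁆ ∈ zpowers p := by
    rw [cm_invol a2 c2]
    have e := sq_invol b2 (h.cent _ (h.le hb) _ (h.cj b hb))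
    rw [inv_mul_cancel_right, h.sq _ hb, mul_one, ← h.cm_left (h.le hb) hb,
      inv_mul_cancel_right] at e
    rw [e, show ∀ y, ⁅a * c, y⁆ = a * ⁅c, y⁆ * a⁻¹ * ⁅a, y⁆ from fun y => by
      simp only [commutatorElement_def]; group]
    exact inv_mem (mul_mem (cj pa (k2 _ hb)) (k1 _ hb))
  have := EA.card_le2 (K := zpowers p) (B := E) h4 ⟨zpowers_le.2 hp, fun x hx => by
      rw [h.sq x hx]; exact one_mem _, fun x hx k => cj (by
        rw [h.cent x (h.le hx) p hp, mul_inv_cancel_right])⟩ k1 (a2 ▸ one_mem _) k2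
    (c2 ▸ one_mem _) k3 (fun m => a4 (h.le m)) (fun m => (h.inv_of hc (by decide) (by decide)).2
      (h.le m)) fun m => (h.inv_of (M := W2) (by
        rw [inv_eq_of_mul_eq_one_right a2, map_mul, ha, hc]; decide) (by decide) (by decide)).2
        (h.le m)
  have := card_zp_le (h.sq p hp)
  have := h.card
  omega

omit h in
theorem n1 [Finite X] (h : Fr E E z ρ ν) (h4 : SectionalPRankLE 2 4 X) (hT : Tv E E z) :
    N1 E z := by
  have inv : ∀ x, x * x = 1 → x ∈ E := fun w w1 => by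
    by_contra w2
    obtain ⟨a, a2, ha⟩ := h.exists_inv w1 w2 (M := W1) (by decide) (by decide) (by decide)
    obtain ⟨b, b2, hb⟩ := h.exists_inv w1 w2 (M := W2) (by decide) (by decide) (by decide)
    obtain ⟨f, hf⟩ := h.surj' (M := WF) (by decide)
    exact h.no_inv h4 hT a2 ha hf b2 (h.mem_of (by
      rw [map_mul, ρ_conj (M := W1 * W2) hf (by rw [ha]; decide), ha, hb]; decide))
  have nE : ∀ {d e : X}, e ∈ E → ⁅d * d, e⁆ ≠ 1 → d * d ∉ E := fun he n m =>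
    n (commutatorElement_eq_one_iff_mul_comm.2 (h.cent _ m _ he))
  have p4 : ∀ d : X, d ^ 4 = d * d * (d * d) := fun d => by simp only [pow_succ, pow_zero, one_mul, mul_assoc]
  have r4 : ∀ {d : X}, d ^ 4 ∈ E → ρ d * ρ d * (ρ d * ρ d) = 1 := fun m => by
    rw [← map_mul, ← map_mul, h.ker, ← p4]; exact m
  have r2 : ∀ {d : X}, d * d ∉ E → ρ d * ρ d ≠ 1 := fun m => by
    rw [← map_mul, Ne, h.ker]; exact m
  refine ⟨⟨h.nE, h.sq, h.mem, inv⟩, fun x hx x1 x2 => ?_, fun d d4 e he n => ?_,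
    fun c d c4 d4 e he n e' he' n' => ?_⟩
  · obtain ⟨y, hy⟩ := h.exists_e0 hx x1 x2
    obtain ⟨a, ha⟩ := h.surj' (M := W1) (by decide)
    obtain ⟨f, hf⟩ := h.surj' (M := WF) (by decide)
    obtain ⟨r, hr, e1⟩ := h.onto ![0, 0, 1]
    obtain ⟨a3, a4⟩ := h.inv_of ha (by decide) (by decide)
    obtain ⟨f3, f4⟩ := h.inv_of hf (by decide) (by decide)
    have pa := commutatorElement_eq_one_iff_mul_comm.1
      (h.cm_one hT a3 a4 (h.cj y hx) (by rw [ha, hy]; decide))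
    have pf := commutatorElement_eq_one_iff_mul_comm.1
      (h.cm_one hT f3 f4 (h.cj y hx) (by rw [hf, hy]; decide))
    refine ⟨y⁻¹ * (a * f) * y⁻¹⁻¹, ?_, ?_, _, h.cj y⁻¹ hr, ?_⟩
    · calc _ = y⁻¹ * (a * (f * (y * x * y⁻¹))) * y := by group
        _ = _ := by rw [pf, ← mul_assoc a, pa]; group
    · rw [conj_pow]
      exact h.cj _ (by rw [← h.ker, map_pow, map_mul, ha, hf]; decide)
    · rw [conj_mul, conj_comm, Ne, conj_eq_one_iff]
      intro k
      have := h.ν_cm (a * f * (a * f)) hr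
      rw [k, h.ν_one, e1, map_mul, map_mul, ha, hf] at this
      exact absurd this (by decide)
  · have d2 := nE he n
    have m := h.cm (d * d) he
    have n0 : ν ⁅d * d, e⁆ ≠ 0 := by
      rw [Ne, h.zero _ m]
      exact not_or.2 ⟨n, hT _ (p4 d ▸ d4) d2 e he⟩
    by_cases k : ν (d ^ 4) = 0
    · exact Or.inl (((h.zero _ d4).1 k).resolve_left fun k => d2 (inv _ (p4 d ▸ k)))
    · rw [h.ν_cm _ he, map_mul] at n0
      have := fix_four (r2 d2) (r4 d4) (by
        rw [← h.act d _ d4, show d * d ^ 4 * d⁻¹ = d ^ 4 by group]) k n0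
      rw [← map_mul, ← h.ν_cm _ he] at this
      refine Or.inr ((h.eq_of d4 m this).resolve_left fun k => d2 ?_)
      have : e * (d * d) ∈ E := inv _ (by
        calc _ = e * (d * d * e * (d * d)⁻¹) * (d * d * (d * d)) := by
              generalize d * d = s; group
          _ = ⁅d * d, e⁆ * ⁅d * d, e⁆ := by
            rw [← p4, k, h.cent _ he _ (h.cj _ he), commutatorElement_def, h.inv he]
          _ = 1 := h.sq _ m)
      simpa using mul_mem (inv_mem he) this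
  · obtain ⟨P, p1, p2⟩ := conj_four (r2 (nE he n)) (r4 (c4 ▸ h.mem))
    obtain ⟨P', p1', p2'⟩ := conj_four (r2 (nE he' n')) (r4 d4)
    obtain ⟨x, hx⟩ := h.surj' p1
    obtain ⟨y, hy⟩ := h.surj' p1'
    have e1 := ρ_conj hx p2
    have hq := h.mem_of ((ρ_conj hy p2').trans e1.symm)
    have e2 : (x * c * x⁻¹) ^ 4 = z := by rw [conj_pow, c4, h.cz]
    generalize x * c * x⁻¹ = c at e1 hq e2
    have e3 : y * d * y⁻¹ = y * d * y⁻¹ * c⁻¹ * c := by group
    generalize y * d * y⁻¹ * c⁻¹ = q at hq e3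
    have q1 := mul_mem hq (h.cj c hq)
    obtain ⟨c3, c5⟩ := h.inv_of (x := c * c) (M := W2) (by rw [map_mul, e1]; decide) (by decide)
      (by decide)
    have e4 := commutatorElement_eq_one_iff_mul_comm.1 (h.cm_one hT c3 c5 q1 (by
      rw [h.add _ hq _ (h.cj c hq), h.act c q hq, map_mul, e1]
      generalize ν q = v
      revert v; decide))
    have e5 : (y * d * y⁻¹) ^ 4 = z := by
      rw [e3, p4, show q * c * (q * c) = q * (c * q * c⁻¹) * (c * c) by group, mul_assoc,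
        ← mul_assoc (c * c), e4, mul_assoc _ (c * c), ← p4, ← mul_assoc, h.sq _ q1, one_mul, e2]
    rw [conj_pow, ← h.cz y] at e5
    exact mul_left_cancel (mul_right_cancel e5)

theorem sq_Q (hu : Z4 Q E z u) (hq : q ∈ Q) : (q ∈ E ∧ q * q = 1) ∨ (u⁻¹ * q ∈ E ∧ q * q = z) := by
  refine (hu.split q hq).imp (fun m => ⟨m, h.sq q m⟩) fun m => ⟨m, ?_⟩
  have := h.sq _ m
  rw [mul_assoc, ← mul_assoc q, hu.comm q hq _ (inv_mem hu.mem), ← mul_assoc, ← mul_assoc,
    ← mul_inv_rev, hu.sq, mul_assoc, inv_mul_eq_one] at this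
  exact this.symm

theorem cm_Q (hu : Z4 Q E z u) (x : X) (hq : q ∈ Q) : ⁅x, q⁆ ∈ E := by
  have m := h.nQ.conj_mem q hq x
  refine ((h.sq_Q hu (mul_mem m (inv_mem hq))).resolve_right fun k => h.ne ?_).1
  rw [← k.2, mul_assoc, ← mul_assoc q⁻¹, ← hu.comm _ m _ (inv_mem hq), ← mul_assoc, ← mul_assoc,
    conj_mul, mul_assoc _ q⁻¹, ← mul_inv_rev]
  rcases h.sq_Q hu hq with e | e <;> rw [e.2]
  · simp
  · rw [h.cz, mul_inv_cancel]

theorem n2 [Finite X] (h4 : SectionalPRankLE 2 4 X) (hu : Z4 Q E z u) : N2 E z u := by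
  refine ⟨⟨h.nE, h.sq, h.mem, fun w w1 => ?_⟩, h.cent u hu.mem, hu.sq, fun x hx =>
    (h.sq_Q hu (h.mem_of_cent hx)).imp (·.2) (·.2)⟩
  by_cases w2 : w ∈ Q
  · exact ((h.sq_Q hu w2).resolve_right fun k => h.ne (k.2.symm.trans w1)).1
  exfalso
  obtain ⟨b, b2, hb⟩ := h.exists_inv w1 w2 (M := W2) (by decide) (by decide) (by decide)
  have hm := h.cm_Q hu b hu.mem
  have sq : ∀ {a y : X}, a * a = 1 → y ∈ Q → y * a * (y * a) = ⁅a, y⁆ * (y * y) := fun a2 hy =>
    sq_invol a2 (hu.comm _ hy _ (h.nQ.conj_mem _ hy _))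
  have cu : ∀ {e : X}, e ∈ E → ν ⁅b, u * e⁆ = ν ⁅b, u⁆ + (W2 *ᵥ ν e + ν e) := fun he => by
    rw [comm_mul_right, h.cent u hu.mem _ (h.cm b he), mul_inv_cancel_right,
      h.add _ hm _ (h.cm b he), h.ν_cm b he, hb]
  have fx : ∀ {x : X}, x ∈ Q → ⁅b, x⁆ * b = b * ⁅b, x⁆ := fun hx =>
    cm_fix (by rw [b2, one_mul, mul_one]) (h.inv (h.cm_Q hu b hx))
  by_cases k : ν ⁅b, u⁆ = 0 ∨ ν ⁅b, u⁆ = e0
  · obtain ⟨p, hp, np⟩ := h.onto e0
    have pz : p ∉ zpowers z := fun m => by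
      rw [(h.zero p hp).2 (mem_zp h.zz m)] at np
      exact absurd np (by decide)
    have cK := card_adj (B := zpowers z) (g := p) (fun x hx => by
      rwa [h.cent p (h.le hp) x (zpowers_le.2 h.mem hx), mul_inv_cancel_right])
      (h.sq p hp ▸ one_mem _) pz
    have KE : zpowers z ⊔ zpowers p ≤ E := sup_le (zpowers_le.2 h.mem) (zpowers_le.2 hp)
    have zK : z ∈ zpowers z ⊔ zpowers p := mem_sup_left (mem_zpowers z)
    have mK : ∀ e ∈ E, (ν e = 0 ∨ ν e = e0) → e ∈ zpowers z ⊔ zpowers p := fun e he k => by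
      have pK : p ∈ zpowers z ⊔ zpowers p := mem_sup_right (mem_zpowers p)
      rcases k with k | k
      · rcases (h.zero e he).1 k with rfl | rfl
        exacts [one_mem _, zK]
      · rcases h.eq_of he hp (k.trans np.symm) with rfl | rfl
        exacts [pK, mul_mem zK pK]
    generalize zpowers z ⊔ zpowers p = K at cK KE zK mK
    have sK : ∀ q ∈ Q, q * q ∈ K := fun q hq => by
      rcases h.sq_Q hu hq with e | e <;> rw [e.2]
      exacts [one_mem _, zK]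
    have d0 : ∀ q ∈ Q, ν ⁅b, q⁆ = 0 ∨ ν ⁅b, q⁆ = e0 := fun q hq => by
      rcases hu.split q hq with m | m
      · rw [h.ν_cm b m, hb]; generalize ν q = v; revert v; decide
      · rw [← mul_inv_cancel_left u q, cu m]
        generalize ν (u⁻¹ * q) = v
        rcases k with k | k <;> rw [k] <;> revert v <;> decide
    have d1 : ∀ y, ρ y *ᵥ e0 = e0 → ∀ q ∈ Q, ⁅y * b * y⁻¹, q⁆ ∈ K := fun y hy q hq => by
      refine mK _ (h.cm_Q hu _ hq) ?_
      have m := h.nQ.conj_mem q hq y⁻¹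
      rw [show q = y * (y⁻¹ * q * y⁻¹⁻¹) * y⁻¹ by group, conj_comm, h.act _ _ (h.cm_Q hu b m)]
      rcases d0 _ m with k | k <;> rw [k]
      exacts [Or.inl (Matrix.mulVec_zero _), Or.inr hy]
    obtain ⟨y, hy⟩ := h.surj' (M := !![1, 0, 0; 0, 0, 1; 0, 1, 0]) (by decide)
    obtain ⟨x, hx⟩ := h.surj' (M := !![1, 0, 0; 0, 1, 0; 0, 1, 1]) (by decide)
    have ha : ρ (y * b * y⁻¹) = W1 := ρ_conj hy (by rw [hb]; decide)
    have hc : ρ (x * b * x⁻¹) = W1 * W2 := ρ_conj hx (by rw [hb]; decide)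
    have a1 := d1 y (by rw [hy]; decide)
    have c1 := d1 x (by rw [hx]; decide)
    have a2 : y * b * y⁻¹ * (y * b * y⁻¹) = 1 := by rw [conj_mul, b2]; simp
    have c2 : x * b * x⁻¹ * (x * b * x⁻¹) = 1 := by rw [conj_mul, b2]; simp
    generalize y * b * y⁻¹ = a at ha a1 a2
    generalize x * b * x⁻¹ = c at hc c1 c2
    have m : a * b * c⁻¹ ∈ Q := h.mem_of (by rw [map_mul, ha, hb, hc])
    have e := sq c2 m
    rw [inv_mul_cancel_right] at e
    have := EA.card_le2 (K := K) (B := Q) (g := a) (a := b) h4 ⟨KE.trans h.le, sK, fun x hx k hk => by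
        rwa [h.cent x hx k (KE hk), mul_inv_cancel_right]⟩ a1 (a2 ▸ one_mem _)
      (fun q hq => mK _ (h.cm_Q hu b hq) (d0 q hq)) (b2 ▸ one_mem _)
      (by rw [cm_invol a2 b2, e]; exact inv_mem (mul_mem (c1 _ m) (sK _ m)))
      (h.inv_of ha (by decide) (by decide)).2 (h.inv_of hb (by decide) (by decide)).2
      (h.inv_of (M := W1 * W2) (by rw [inv_eq_of_mul_eq_one_right a2, map_mul, ha, hb])
        (by decide) (by decide)).2
    have := card_zp_le h.zz
    have := hu.card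
    omega
  · have fm : W2 *ᵥ ν ⁅b, u⁆ = ν ⁅b, u⁆ := by
      rw [← hb, ← h.act _ _ hm, ← fx hu.mem, mul_inv_cancel_right]
    have hT : Tv Q E z := by
      by_contra hT
      obtain ⟨e, he, hz⟩ := h.free_all hT (b2 ▸ one_mem _) (h.inv_of hb (by decide) (by decide)).2
      obtain ⟨r, hr, nr⟩ := h.onto ![0, 0, 1]
      have hp := h.cm b hr
      have np : ν ⁅b, r⁆ = e0 := by rw [h.ν_cm b hr, hb, nr]; decide
      have ne : W2 *ᵥ ν e + ν e = 0 := by rw [← hb, ← h.ν_cm b he, hz, h.ν_z]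
      have key : ∀ x ∈ E, x ∈ C1 b → ν e = ν x → False := fun x hx cx k => h.ne (by
        rw [← hz, commutatorElement_eq_one_iff_mul_comm, eq_comm,
          ← mem_centralizer_singleton_iff]
        rcases h.eq_of he hx k with rfl | rfl
        exacts [cx, mul_mem (mem_centralizer_singleton_iff.2 (h.zc b).symm) cx])
      have c1 : ⁅b, r⁆ ∈ C1 b := mem_centralizer_singleton_iff.2 (fx (h.le hr))
      have c2 : ⁅b, u⁆ ∈ C1 b := mem_centralizer_singleton_iff.2 (fx hu.mem)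
      have t1 : ∀ v : V3, W2 *ᵥ v + v = 0 → v = 0 ∨ v = e0 ∨ v = ![0, 1, 0] ∨ v = ![1, 1, 0] := by
        decide
      have : ν e = 0 ∨ ν e = e0 ∨ ν e = ν ⁅b, u⁆ ∨ ν e = e0 + ν ⁅b, u⁆ := by
        rcases t1 _ (show W2 *ᵥ ν ⁅b, u⁆ + ν ⁅b, u⁆ = 0 by rw [fm, add_self]) with
          l | l | l | l <;> rw [l] at k ⊢ <;> rcases t1 _ ne with l | l | l | l <;> rw [l] <;>
          revert k <;> decide
      rcases this with k | k | k | k
      · exact key 1 (one_mem _) (one_mem _) (k.trans h.ν_one.symm)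
      · exact key _ hp c1 (k.trans np.symm)
      · exact key _ hm c2 k
      · exact key _ (mul_mem hp hm) (mul_mem c1 c2) (by rw [h.add _ hp _ hm, np, k])
    obtain ⟨a, a2, ha⟩ := h.exists_inv w1 w2 (M := W1) (by decide) (by decide) (by decide)
    obtain ⟨f, f2, hf⟩ := h.exists_inv w1 w2 (M := WF) (by decide) (by decide) (by decide)
    have m : a * (f * a * f⁻¹) * b⁻¹ ∈ Q := h.mem_of (by
      rw [map_mul, ρ_conj (M := W1 * W2) hf (by rw [ha]; decide), ha, hb]; decide)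
    obtain ⟨m1, m2⟩ := (h.sq_Q hu m).resolve_left fun k => h.no_inv h4 hT a2 ha hf b2 k.1
    have e := sq b2 m
    have n := cu m1
    rw [mul_inv_cancel_left] at n
    have hs := h.cm_Q hu b m
    rw [inv_mul_cancel_right, m2, inv_eq_of_mul_eq_one_right f2] at e
    rw [inv_eq_of_mul_eq_one_right f2] at n hs
    have := h.act (a * f) _ (mul_mem hs h.mem)
    rw [← e, show a * f * (a * (f * a * f) * (a * (f * a * f))) * (a * f)⁻¹ =
      a * (f * a * f) * (a * (f * a * f)) by group, e, h.add _ hs _ h.mem, h.ν_z, add_zero, n,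
      map_mul, ha, hf] at this
    have key : ∀ v v' : V3, v' + (W2 *ᵥ v + v) = (W1 * WF) *ᵥ (v' + (W2 *ᵥ v + v)) →
        v' = 0 ∨ v' = e0 := by decide
    exact k (key _ _ this)

end Fr

end Cfsg.Lib.GHC
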